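import Cfsg.Agent.Lib.Helper3.FusEnum2

/-!
# Consequences of a self-normalising 2-subgroup without strongly closed subgroups
-/

set_option autoImplicit false

namespace Cfsg.Agent.Lib.Helper3.FusHyp

open Cfsg Cfsg.FusionSystem Cfsg.Agent.Lib.Helper28 Cfsg.Agent.Lib.Helper3.M24T
  Cfsg.Agent.Lib.Helper3.M24Gen Cfsg.Agent.Lib.Helper3.FusEnum

/-- `S0` is a nontrivial self-normalising 2-subgroup of `G` without proper nontrivial subgroups strongly closed
with respect to `G`. -/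
structure Hyp {Ω : Type*} [Group Ω] (G S0 : Subgroup Ω) : Prop where
  hle : S0 ≤ G
  h2 : ∀ s ∈ S0, ∃ k : ℕ, s ^ 2 ^ k = 1
  hne : S0 ≠ ⊥
  hN : ∀ n ∈ G, (∀ s ∈ S0, n * s * n⁻¹ ∈ S0) → n ∈ S0
  hSC : ∀ T : Subgroup Ω, T ≤ S0 → T ≠ ⊥ →
      (∀ t ∈ T, ∀ g ∈ G, g * t * g⁻¹ ∈ S0 → g * t * g⁻¹ ∈ T) → S0 ≤ T

/-- transport along an isomorphism onto `G`. -/
theorem Hyp.of_iso {Ω : Type*} [Group Ω] {G S0 : Subgroup Ω} (h : Hyp G S0) {H : Type*} [Group H]
    (e : H ≃* G) : Hyp (⊤ : Subgroup H) ((S0.subgroupOf G).comap e.toMonoidHom) := by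
  have hm : ∀ x : H, x ∈ (S0.subgroupOf G).comap e.toMonoidHom ↔ ((e x : G) : Ω) ∈ S0 := fun x => Iff.rfl
  refine ⟨le_top, ?_, ?_, ?_, ?_⟩
  · intro s hs
    obtain ⟨k, hk⟩ := h.h2 _ ((hm s).1 hs)
    refine ⟨k, e.injective (Subtype.ext ?_)⟩
    simpa using hk
  · intro hb
    apply h.hne
    rw [eq_bot_iff]
    intro s hs
    have h1 : e.symm ⟨s, h.hle hs⟩ ∈ (S0.subgroupOf G).comap e.toMonoidHom := by
      rw [hm]; simpa using hs
    rw [hb, Subgroup.mem_bot] at h1
    have h2 : (⟨s, h.hle hs⟩ : G) = 1 := by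
      have := congrArg e h1
      simpa using this
    rw [Subgroup.mem_bot]
    exact congrArg Subtype.val h2
  · intro n _ hn
    rw [hm]
    apply h.hN _ (e n).2
    intro s hs
    have h1 : e.symm ⟨s, h.hle hs⟩ ∈ (S0.subgroupOf G).comap e.toMonoidHom := by
      rw [hm]; simpa using hs
    have h2 := (hm _).1 (hn _ h1)
    simpa using h2
  · intro T hT hTne hcl
    let c : H →* Ω := G.subtype.comp e.toMonoidHom
    have hc : ∀ x : H, c x = ((e x : G) : Ω) := fun x => rfl
    have hcinj : Function.Injective c := fun a b hab => e.injective (Subtype.ext hab)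
    have h1 : S0 ≤ T.map c := by
      apply h.hSC
      · rintro _ ⟨x, hx, rfl⟩
        exact (hm x).1 (hT hx)
      · intro hb
        apply hTne
        rwa [Subgroup.map_eq_bot_iff_of_injective _ hcinj] at hb
      · rintro _ ⟨x, hx, rfl⟩ k hk hks
        have e1 : c (e.symm ⟨k, hk⟩ * x * (e.symm ⟨k, hk⟩)⁻¹) = k * c x * k⁻¹ := by
          rw [map_mul, map_mul, map_inv, hc (e.symm _)]; simp
        rw [← e1] at hks ⊢
        exact ⟨_, hcl x hx _ (Subgroup.mem_top _) ((hm _).2 hks), rfl⟩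
    intro x hx
    obtain ⟨y, hy, hyx⟩ := h1 ((hm x).1 hx)
    rw [← hcinj hyx]; exact hy

/-- the fusion system on every Sylow 2-subgroup is simple (abstract group). -/
theorem Hyp.isSimple_top {K : Type*} [Group K] [Finite K] {S0 : Subgroup K} (h : Hyp ⊤ S0)
    (S : Sylow 2 K) : (groupFusionSystem (S : Subgroup K)).IsSimple 2 := by
  have hP : IsPGroup 2 S0 := by
    rintro ⟨x, hx⟩
    obtain ⟨k, hk⟩ := h.h2 x hx
    exact ⟨k, Subtype.ext (by simpa using hk)⟩
  obtain ⟨S1, hS1⟩ := FusCrit.exists_sylow_of_selfNormalizing S0 hP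
    (fun g hg => h.hN g (Subgroup.mem_top _) hg)
  obtain ⟨g, hg⟩ := MulAction.exists_smul_eq K S1 S
  have hmem : ∀ x : K, x ∈ (S : Subgroup K) ↔ g⁻¹ * x * g ∈ S0 := by
    intro x
    rw [← hg, Sylow.coe_subgroup_smul, hS1, Subgroup.mem_pointwise_smul_iff_inv_smul_mem,
      MulAut.smul_def, MulAut.conj_inv_apply]
  have hback : ∀ s ∈ S0, g * s * g⁻¹ ∈ (S : Subgroup K) := by
    intro s hs
    rw [hmem]
    have : g⁻¹ * (g * s * g⁻¹) * g = s := by group
    rw [this]; exact hs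
  apply FusCrit.isSimple_of_closed S
  · intro hb
    apply h.hne
    rw [eq_bot_iff]
    intro s hs
    have h1 := hback s hs
    rw [hb, Subgroup.mem_bot] at h1
    rw [Subgroup.mem_bot]
    have : s = g⁻¹ * (g * s * g⁻¹) * g := by group
    rw [this, h1]; simp
  · intro n hn
    rw [hmem]
    apply h.hN _ (Subgroup.mem_top _)
    intro s hs
    have h3 := (hmem _).mp (hn _ (hback s hs))
    have : g⁻¹ * (n * (g * s * g⁻¹) * n⁻¹) * g = g⁻¹ * n * g * s * (g⁻¹ * n * g)⁻¹ := by group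
    rw [← this]; exact h3
  · intro T hT hTne hcl
    let c : K →* K := (MulAut.conj g⁻¹).toMonoidHom
    have hc : ∀ x : K, c x = g⁻¹ * x * g := by
      intro x; simp [c]
    have hcinj : Function.Injective c := (MulAut.conj g⁻¹).injective
    have h1 : S0 ≤ T.map c := by
      apply h.hSC
      · rintro _ ⟨x, hx, rfl⟩
        rw [hc]; exact (hmem x).mp (hT hx)
      · intro hb
        apply hTne
        rwa [Subgroup.map_eq_bot_iff_of_injective _ hcinj] at hb
      · rintro _ ⟨x, hx, rfl⟩ k _ hks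
        have e : c (g * k * g⁻¹ * x * (g * k * g⁻¹)⁻¹) = k * c x * k⁻¹ := by
          rw [hc, hc]; group
        rw [← e] at hks ⊢
        refine ⟨_, hcl x hx _ ?_, rfl⟩
        rw [hmem, ← hc]; exact hks
    apply le_antisymm hT
    intro x hx
    obtain ⟨y, hy, hyx⟩ := h1 ((hmem x).mp hx)
    rw [← hc] at hyx
    rw [← hcinj hyx]; exact hy

/-- the fusion system of a group isomorphic to `G` on a Sylow 2-subgroup is simple. -/
theorem Hyp.isSimple_of_iso {Ω : Type*} [Group Ω] {G S0 : Subgroup Ω} (h : Hyp G S0) {H : Type*}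
    [Group H] [Finite H] (e : H ≃* G) (S : Sylow 2 H) :
    (groupFusionSystem (S : Subgroup H)).IsSimple 2 := (h.of_iso e).isSimple_top S

/-- a normal subgroup of even order is the whole group. -/
theorem Hyp.normal_eq_top {K : Type*} [Group K] [Finite K] {S0 : Subgroup K} (h : Hyp ⊤ S0)
    (N : Subgroup K) [hNn : N.Normal] (heven : 2 ∣ Nat.card N) : N = ⊤ := by
  have hP : IsPGroup 2 S0 := by
    rintro ⟨x, hx⟩
    obtain ⟨k, hk⟩ := h.h2 x hx
    exact ⟨k, Subtype.ext (by simpa using hk)⟩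
  obtain ⟨S1, hS1⟩ := FusCrit.exists_sylow_of_selfNormalizing S0 hP
    (fun g hg => h.hN g (Subgroup.mem_top _) hg)
  -- an involution of `N` in `S0`
  obtain ⟨t, ht⟩ := exists_prime_orderOf_dvd_card' (G := N) 2 heven
  have hz : IsPGroup 2 (Subgroup.zpowers (t : K)) := by
    apply IsPGroup.of_card (n := 1)
    rw [Nat.card_zpowers, Subgroup.orderOf_coe, ht, pow_one]
  obtain ⟨Q, hQ⟩ := hz.exists_le_sylow
  obtain ⟨g, hg⟩ := MulAction.exists_smul_eq K Q S1
  have ht1 : (t : K) ≠ 1 := by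
    intro e
    have : t = 1 := Subtype.ext e
    rw [this, orderOf_one] at ht
    norm_num at ht
  have htS : g * (t : K) * g⁻¹ ∈ S0 := by
    rw [← hS1, ← hg, Sylow.coe_subgroup_smul, Subgroup.mem_pointwise_smul_iff_inv_smul_mem,
      MulAut.smul_def, MulAut.conj_inv_apply]
    have : g⁻¹ * (g * (t : K) * g⁻¹) * g = t := by group
    rw [this]
    exact hQ (Subgroup.mem_zpowers _)
  have hle : S0 ≤ N ⊓ S0 := by
    apply h.hSC _ inf_le_right
    · intro hb
      have : g * (t : K) * g⁻¹ ∈ N ⊓ S0 := ⟨hNn.conj_mem _ t.2 g, htS⟩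
      rw [hb, Subgroup.mem_bot] at this
      apply ht1
      have e : (t : K) = g⁻¹ * (g * (t : K) * g⁻¹) * g := by group
      rw [e, this]; simp
    · intro x hx k _ hk
      exact ⟨hNn.conj_mem _ hx.1 k, hk⟩
  have hSN : (S1 : Subgroup K) ≤ N := by rw [hS1]; exact fun x hx => (hle hx).1
  have hfr := Sylow.normalizer_sup_eq_top (S1.subtype hSN)
  have e1 : ((S1.subtype hSN : Sylow 2 N) : Subgroup N).map N.subtype = S1 := by
    rw [Sylow.coe_subtype, Subgroup.subgroupOf_map_subtype, inf_eq_left]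
    exact hSN
  rw [e1] at hfr
  have hnorm : Subgroup.normalizer ((S1 : Subgroup K) : Set K) ≤ N := by
    intro n hn
    apply hSN
    rw [hS1]
    apply h.hN n (Subgroup.mem_top _)
    intro s hs
    rw [← hS1] at hs ⊢
    exact (Subgroup.mem_normalizer_iff.mp hn s).mp hs
  rw [← hfr]
  exact (sup_eq_right.2 hnorm).symm

/-- The hypotheses from a certificate. -/
theorem hyp_of_cert {inG : List ℕ → Bool} {col : ℕ → ℕ} (C : FusEnum.Cert inG col)
    (G : Subgroup (Equiv.Perm GolayPt)) (hinG : ∀ t, inG t = true → Good G t)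
    (hcol : ∀ g ∈ G, ∀ x, col (idx (g x)) = col (idx x))
    (hbase : ∀ g ∈ G, (∀ b ∈ C.lv.map Prod.fst, g (ptOf b) = ptOf b) → g = 1)
    (h1 : C.chk1 = true) (h2 : C.chk2 = true) (h3 : C.chk3 = true) (h4 : C.chk4 = true)
    (h5 : C.chk5 = true) (h6 : C.chk6 = true) (h7 : C.chk7 = true) : Hyp G (SL G C.lam) := by
  have hinS : ∀ t, C.inS t = true → Good (SL G C.lam) t := by
    intro t ht
    simp only [FusEnum.Cert.inS, Bool.and_eq_true] at ht
    exact good_SL (hinG t ht.1) ht.2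
  have ha : ∀ g ∈ SL G C.lam, tblOf g ∈ C.P := by
    intro g hg
    exact enum hinS (fun g hg => hcol g hg.1) (fun g hg => hg.2) C.lv [] h1
      (fun g hg h => hbase g hg.1 (by simpa using h)) g hg (by simp)
  have hW := good_of_chainOK hinS C.lv [] h1
  have hb : ∀ t ∈ C.P, Good (SL G C.lam) t := good_prods C.lv hW
  have hnd : C.P.Nodup := List.Nodup.of_map _ (nodup_of_nodupB h2)
  simp only [FusEnum.Cert.chk5, Bool.and_eq_true, List.all_eq_true, bne_iff_ne] at h5
  obtain ⟨⟨hgs, hz⟩, hz1⟩ := h5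
  have hzg := hinS _ hz
  refine ⟨SL_le G C.lam, ?_, ?_, ?_, ?_⟩
  · intro s hs
    refine ⟨4, ?_⟩
    simp only [FusEnum.Cert.chk4, List.all_eq_true, beq_iff_eq] at h4
    have e := h4 _ (ha s hs)
    obtain ⟨a1, a2⟩ := permOf_sq (isTbl_tblOf s)
    obtain ⟨b1, b2⟩ := permOf_sq a1
    obtain ⟨c1, c2⟩ := permOf_sq b1
    obtain ⟨d1, d2⟩ := permOf_sq c1
    rw [e, c2, b2, a2, permOf_tblOf, permOf_idT] at d2
    rw [d2, ← pow_mul, ← pow_mul, ← pow_mul]
    norm_num
  · intro h
    have h8 := hzg.2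
    rw [h, Subgroup.mem_bot] at h8
    apply hz1
    rw [← tblOf_permOf hzg.1, h8, tblOf_one]
  · intro n hnG hn
    exact mem_of_normalizes ha hb hnd h3 hnG hn
  · intro T hT hTne hcl
    obtain ⟨⟨t, ht⟩, ht1⟩ := (Subgroup.ne_bot_iff_exists_ne_one).mp hTne
    have ht1' : t ≠ 1 := fun h => ht1 (Subtype.ext h)
    have hTn : ∀ t ∈ T, ∀ s ∈ SL G C.lam, s * t * s⁻¹ ∈ T := by
      intro t ht s hs
      exact hcl t ht s hs.1 ((SL G C.lam).mul_mem ((SL G C.lam).mul_mem hs (hT ht))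
        ((SL G C.lam).inv_mem hs))
    simp only [FusEnum.Cert.chk6, List.all_eq_true, Bool.or_eq_true, beq_iff_eq] at h6
    have hzT : Good T C.z := by
      rcases h6 _ (ha t (hT ht)) with h | h
      · exfalso; apply ht1'
        rw [← permOf_tblOf t, h, permOf_idT]
      · rw [← h]
        exact good_descend hTn (fun s hs => hinS s (hgs s hs)) 12 (good_tblOf ht)
    have hD := good_runD hinG hinS hcl C.steps [C.z] (by
      intro a ha; rw [List.mem_singleton.1 ha]; exact hzT)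
    simp only [FusEnum.Cert.chk7, List.all_eq_true, List.contains_eq_mem, decide_eq_true_eq] at h7
    have hP := good_prods (H := T) C.lv (fun a ha u hu => hD u (h7 a ha u hu))
    intro g hg
    have := (hP _ (ha g hg)).2
    rwa [permOf_tblOf] at this

/-- the transversal elements of a certificate lie in the subgroup. -/
theorem good_lv {inG : List ℕ → Bool} {col : ℕ → ℕ} (C : FusEnum.Cert inG col)
    (G : Subgroup (Equiv.Perm GolayPt)) (hinG : ∀ t, inG t = true → Good G t)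
    (h1 : C.chk1 = true) : ∀ a ∈ C.lv, ∀ u ∈ a.2, Good (SL G C.lam) u := by
  have hinS : ∀ t, C.inS t = true → Good (SL G C.lam) t := by
    intro t ht
    simp only [FusEnum.Cert.inS, Bool.and_eq_true] at ht
    exact good_SL (hinG t ht.1) ht.2
  exact good_of_chainOK hinS C.lv [] h1

end Cfsg.Agent.Lib.Helper3.FusHyp
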