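import Cfsg.Agent.Lib.Helper3.M22Simple
import Cfsg.Agent.Lib.Helper28.LeechPairs
import Cfsg.Agent.Lib.Helper28.LeechOrder
import Cfsg.Prelude.Def_Spor_Conway

/-!
# A Sylow 2-subgroup of `M22` in the McLaughlin group
-/

set_option autoImplicit false

namespace Cfsg.Agent.Lib.Helper3.FusMcL

open Cfsg Cfsg.Spor Cfsg.Agent.Lib.Helper28 Cfsg.Agent.Lib.Helper3.M24T Cfsg.Agent.Lib.Helper3.M24Gen
  Cfsg.Agent.Lib.Helper3.FusEnum Cfsg.Agent.Lib.Helper3.FusHyp Cfsg.Agent.Lib.Helper3.M22Simple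

abbrev S22 : Subgroup (Equiv.Perm GolayPt) := SL Spor.M22 FusM22.C.lam

theorem S22_le : S22 ≤ M24 := fun _ h => FusGrp.M22_le h.1

/-- coordinate permutations. -/
def iota : M24 →* Equiv.Perm leechLattice :=
  MonoidHom.mk' (fun σ => (permCo0 σ.1 σ.2).1) (by
    intro a b
    apply Equiv.ext; intro v; apply Subtype.ext; funext i
    rfl)

theorem iota_apply (σ : M24) (v : leechLattice) (i : GolayPt) :
    ((iota σ v : leechLattice) : GolayPt → ℤ) i = (v : GolayPt → ℤ) (σ.1.symm i) := rfl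

theorem iota_mem_Co0 (σ : M24) : iota σ ∈ Co0 := (permCo0 σ.1 σ.2).2

theorem iota_injective : Function.Injective iota := by
  rw [injective_iff_map_eq_one]
  intro σ h
  apply Subtype.ext
  apply Equiv.ext
  intro i
  change σ.1 i = i
  have h1 := iota_apply σ (E8 i) (σ.1 i)
  rw [h, Equiv.Perm.one_apply, E8_coe] at h1
  simp only [Equiv.symm_apply_apply, Pi.single_eq_same] at h1
  by_contra hne
  rw [Pi.single_eq_of_ne hne] at h1
  omega

/-- the image of the Sylow 2-subgroup of `M22`. -/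
def S0L : Subgroup (Equiv.Perm leechLattice) := (S22.subgroupOf M24).map iota

theorem mem_S0L {x : Equiv.Perm leechLattice} : x ∈ S0L ↔ ∃ s : M24, s.1 ∈ S22 ∧ iota s = x := Iff.rfl

theorem mem_McL {n : Equiv.Perm leechLattice} :
    n ∈ McL ↔ n ∈ Co0 ∧ n leechV = leechV ∧ n leechU = leechU := by
  unfold McL Co3
  rw [Subgroup.mem_inf, Subgroup.mem_inf, MulAction.mem_stabilizer_iff, MulAction.mem_stabilizer_iff,
    and_assoc]
  rfl

theorem symm_fix {σ : Equiv.Perm GolayPt} {p : GolayPt} (h : σ p = p) (i : GolayPt) :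
    σ.symm i = p ↔ i = p := by
  rw [Equiv.symm_apply_eq, h]

theorem iota_mem_McL {σ : M24} (h : σ.1 ∈ Spor.M22) : iota σ ∈ McL := by
  obtain ⟨-, f1, f2⟩ := FusGrp.mem_M22.1 h
  rw [ptOf_23] at f1
  rw [ptOf_0] at f2
  refine mem_McL.2 ⟨iota_mem_Co0 σ, ?_, ?_⟩
  · apply Subtype.ext; funext i
    rw [iota_apply]
    change vecV (σ.1.symm i) = vecV i
    unfold vecV
    simp only [symm_fix f1]
  · apply Subtype.ext; funext i
    rw [iota_apply]
    change vecU (σ.1.symm i) = vecU i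
    unfold vecU
    simp only [symm_fix f1, symm_fix f2]

theorem sum_eq_range (f : GolayPt → ℤ) : ∑ i, f i = ∑ k ∈ Finset.range 24, f (ptOf k) := by
  apply Finset.sum_nbij' idx ptOf
  · intro a _; exact Finset.mem_range.2 (idx_lt a)
  · intro k _; exact Finset.mem_univ _
  · intro a _; exact ptOf_idx a
  · intro k hk; exact idx_ptOf (Finset.mem_range.1 hk)
  · intro a _; rw [ptOf_idx]

/-- representatives of the orbits of `S22`. -/
def cl (k : ℕ) : ℕ :=
  if k = 23 then 23 else if k = 0 then 0 else if k = 1 ∨ k = 2 then 1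
  else if k = 3 ∨ k = 5 ∨ k = 14 ∨ k = 17 then 3 else 4

theorem cl_check : ∀ k < 24, (FusM22.C.lv.any fun a => a.2.any fun u => u.getD (cl k) 0 == k) = true := by
  decide +kernel

theorem cl_lt : ∀ k < 24, cl k < 24 := by decide

theorem const_on {w : GolayPt → ℤ} (hw : ∀ s ∈ S22, ∀ i, w (s i) = w i) {k : ℕ} (hk : k < 24) :
    w (ptOf k) = w (ptOf (cl k)) := by
  have h := cl_check k hk
  simp only [List.any_eq_true, beq_iff_eq] at h
  obtain ⟨a, ha, u, hu, e⟩ := h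
  have hg := good_lv FusM22.C Spor.M22 FusGrp.good22 FusM22.c1 a ha u hu
  have h1 := hw _ hg.2 (ptOf (cl k))
  rw [permOf_apply hg.1, idx_ptOf (cl_lt k hk), e] at h1
  exact h1

theorem solve {a b c d e m : ℤ} (h1 : a ^ 2 + b ^ 2 + 2 * c ^ 2 + 4 * d ^ 2 + 16 * e ^ 2 = 64)
    (h2 : 4 * a + 4 * b = 32) (h3 : -5 * a - b - 2 * c - 4 * d - 16 * e = -40)
    (pa : a ≡ m [ZMOD 2]) (pc : c ≡ m [ZMOD 2]) (pd : d ≡ m [ZMOD 2]) (pe : e ≡ m [ZMOD 2]) :
    a = 8 ∧ b = 0 ∧ c = 0 ∧ d = 0 ∧ e = 0 := by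
  have hb : b = 8 - a := by omega
  have hc : c = 16 - 2 * a - 2 * d - 8 * e := by omega
  unfold Int.ModEq at pa pc pd pe
  obtain ⟨a', rfl⟩ : ∃ a', a = 2 * a' := ⟨a / 2, by omega⟩
  obtain ⟨d', rfl⟩ : ∃ d', d = 2 * d' := ⟨d / 2, by omega⟩
  obtain ⟨e', rfl⟩ : ∃ e', e = 2 * e' := ⟨e / 2, by omega⟩
  subst hb hc
  have key : 2 * (a' - 2) ^ 2 + 8 * (4 - a' - d' - 4 * e') ^ 2 + 4 * d' ^ 2 + 16 * e' ^ 2 = 8 := by
    have h4 : 4 * (2 * (a' - 2) ^ 2 + 8 * (4 - a' - d' - 4 * e') ^ 2 + 4 * d' ^ 2 + 16 * e' ^ 2) = 32 := by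
      linear_combination h1
    linarith
  have he : e' = 0 := by
    have h4 : 16 * e' ^ 2 ≤ 8 := by
      nlinarith [sq_nonneg (a' - 2), sq_nonneg (4 - a' - d' - 4 * e'), sq_nonneg d']
    have h5 : e' ^ 2 ≤ 0 := by omega
    exact pow_eq_zero_iff (two_ne_zero) |>.1 (le_antisymm h5 (sq_nonneg _))
  subst he
  have hd : d' ^ 2 ≤ 2 := by
    nlinarith [sq_nonneg (a' - 2), sq_nonneg (4 - a' - d' - 4 * 0)]
  have ha : (a' - 2) ^ 2 ≤ 4 := by
    nlinarith [sq_nonneg d', sq_nonneg (4 - a' - d' - 4 * 0)]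
  have hd1 : -1 ≤ d' ∧ d' ≤ 1 := by constructor <;> nlinarith
  have ha1 : 0 ≤ a' ∧ a' ≤ 4 := by constructor <;> nlinarith
  obtain ⟨d1, d2⟩ := hd1
  obtain ⟨a1, a2⟩ := ha1
  clear h1 h2 h3 pa pc pd pe hd ha
  interval_cases d' <;> interval_cases a' <;>
    first | (exfalso; revert key; norm_num; done) | norm_num

theorem vecU_ptOf : ∀ k < 24, vecU (ptOf k) = if k = 23 ∨ k = 0 then 4 else 0 := by decide

theorem vecV_ptOf : ∀ k < 24, vecV (ptOf k) = if k = 23 then -5 else -1 := by decide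

theorem single_ptOf : ∀ k < 24, (Pi.single none 8 : GolayPt → ℤ) (ptOf k) = if cl k = 23 then 8 else 0 := by
  decide +kernel

theorem cl_cases : ∀ k < 24, cl k = 23 ∨ cl k = 0 ∨ cl k = 1 ∨ cl k = 3 ∨ cl k = 4 := by decide

theorem eq_single {w : GolayPt → ℤ} (hwL : w ∈ leechLattice) (hw : ∀ s ∈ S22, ∀ i, w (s i) = w i)
    (h1 : sqNorm w = 64) (h2 : dotInt w vecU = 32) (h3 : dotInt w vecV = -40) :
    w = Pi.single none 8 := by
  have hc : ∀ k < 24, w (ptOf k) = w (ptOf (cl k)) := fun k hk => const_on hw hk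
  have e1 : sqNorm w = ∑ k ∈ Finset.range 24, w (ptOf (cl k)) ^ 2 := by
    unfold sqNorm
    rw [sum_eq_range]
    exact Finset.sum_congr rfl (fun k hk => by rw [hc k (Finset.mem_range.1 hk)])
  have e2 : dotInt w vecU = ∑ k ∈ Finset.range 24, w (ptOf (cl k)) * (if k = 23 ∨ k = 0 then 4 else 0) := by
    unfold dotInt
    rw [sum_eq_range]
    exact Finset.sum_congr rfl (fun k hk => by
      rw [hc k (Finset.mem_range.1 hk), vecU_ptOf k (Finset.mem_range.1 hk)])
  have e3 : dotInt w vecV = ∑ k ∈ Finset.range 24, w (ptOf (cl k)) * (if k = 23 then -5 else -1) := by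
    unfold dotInt
    rw [sum_eq_range]
    exact Finset.sum_congr rfl (fun k hk => by
      rw [hc k (Finset.mem_range.1 hk), vecV_ptOf k (Finset.mem_range.1 hk)])
  rw [e1] at h1
  rw [e2] at h2
  rw [e3] at h3
  simp [Finset.sum_range_succ, cl] at h1 h2 h3
  obtain ⟨m, hm, -⟩ := mem_leechLattice_iff.1 hwL
  obtain ⟨a, b, c, d, e⟩ := solve (a := w (ptOf 23)) (b := w (ptOf 0)) (c := w (ptOf 1))
    (d := w (ptOf 3)) (e := w (ptOf 4)) (m := m) (by linarith) (by linarith) (by linarith)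
    (hm _) (hm _) (hm _) (hm _)
  funext i
  rw [← ptOf_idx i, hc _ (idx_lt i), single_ptOf _ (idx_lt i)]
  rcases cl_cases _ (idx_lt i) with h | h | h | h | h <;> rw [h] <;> simp [a, b, c, d, e]

instance : Finite S0L :=
  Finite.of_surjective (fun x : S22.subgroupOf M24 => (⟨iota x, Subgroup.mem_map_of_mem _ x.2⟩ : S0L))
    (by
      rintro ⟨_, x, hx, rfl⟩
      exact ⟨⟨x, hx⟩, rfl⟩)

theorem iota_E8 {σ : M24} (h : σ.1 ∈ Spor.M22) : iota σ (E8 none) = E8 none := by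
  obtain ⟨-, f1, -⟩ := FusGrp.mem_M22.1 h
  rw [ptOf_23] at f1
  apply Subtype.ext; funext i
  rw [iota_apply, E8_coe]
  simp only [Pi.single_apply, symm_fix f1]

theorem dot_E8_U : dotInt (Pi.single none 8 : GolayPt → ℤ) vecU = 32 := by decide +kernel

theorem dot_E8_V : dotInt (Pi.single none 8 : GolayPt → ℤ) vecV = -40 := by decide +kernel

theorem fix_E8 {n : Equiv.Perm leechLattice} (hn : n ∈ McL) (hnorm : ∀ s ∈ S0L, n * s * n⁻¹ ∈ S0L) :
    n (E8 none) = E8 none := by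
  obtain ⟨hC, hV, hU⟩ := mem_McL.1 hn
  have hinv := FusCrit.conj_inv_mem S0L hnorm
  apply Subtype.ext
  rw [E8_coe]
  apply eq_single (Subtype.coe_prop _)
  · intro s hs i
    obtain ⟨s', hs', e⟩ := mem_S0L.1 (hinv (iota ⟨s, S22_le hs⟩) (mem_S0L.2 ⟨⟨s, S22_le hs⟩, hs, rfl⟩))
    have f := iota_E8 (σ := s') hs'.1
    rw [e] at f
    simp only [inv_inv, Equiv.Perm.mul_apply] at f
    rw [Equiv.Perm.inv_eq_iff_eq] at f
    have h4 := iota_apply ⟨s, S22_le hs⟩ (n (E8 none)) (s i)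
    rw [f] at h4
    simpa using h4
  · have := co0_norm ⟨n, hC⟩ (E8 none)
    rw [E8_coe, sqNorm_single8] at this
    exact this
  · have := co0_dot ⟨n, hC⟩ (E8 none) leechU
    have e : ((⟨n, hC⟩ : Co0) • leechU) = leechU := hU
    rw [e, E8_coe] at this
    exact this.trans dot_E8_U
  · have := co0_dot ⟨n, hC⟩ (E8 none) leechV
    have e : ((⟨n, hC⟩ : Co0) • leechV) = leechV := hV
    rw [e, E8_coe] at this
    exact this.trans dot_E8_V

theorem vecV_neg (i : GolayPt) : vecV i < 0 := by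
  unfold vecV; split <;> norm_num

/-- an element of `McL` fixing `(8, 0, …)` is a coordinate permutation from `M22`. -/
theorem exists_iota {n : Equiv.Perm leechLattice} (hn : n ∈ McL) (h8 : n (E8 none) = E8 none) :
    ∃ σ : M24, σ.1 ∈ Spor.M22 ∧ iota σ = n := by
  obtain ⟨hC, hV, hU⟩ := mem_McL.1 hn
  obtain ⟨σ, hσ, c, -, hv⟩ := mono_of_preserves ⟨n, hC⟩ (preserves_of_fix (g := ⟨n, hC⟩) h8)
  have hv' : ∀ v : leechLattice, ((n v : leechLattice) : GolayPt → ℤ) = signedPerm σ c v := hv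
  have hc : ∀ i, i ∉ c := by
    intro i hi
    have h1 := congrFun (hv' leechV) i
    rw [hV] at h1
    unfold signedPerm at h1
    rw [if_pos hi] at h1
    have h2 : vecV i = -vecV (σ.symm i) := h1
    have := vecV_neg i
    have := vecV_neg (σ.symm i)
    omega
  have hv2 : ∀ (v : leechLattice) (i : GolayPt),
      ((n v : leechLattice) : GolayPt → ℤ) i = (v : GolayPt → ℤ) (σ.symm i) := by
    intro v i
    rw [hv' v]
    unfold signedPerm
    rw [if_neg (hc i)]
  have f1 : σ.symm none = none := by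
    have h1 : vecV none = vecV (σ.symm none) := by
      have := hv2 leechV none
      rw [hV] at this
      exact this
    unfold vecV at h1
    by_contra hne
    rw [if_pos rfl, if_neg hne] at h1
    omega
  have f2 : σ.symm (some 0) = some 0 := by
    have h1 : vecU (some 0) = vecU (σ.symm (some 0)) := by
      have := hv2 leechU (some 0)
      rw [hU] at this
      exact this
    unfold vecU at h1
    by_contra hne
    have hne2 : σ.symm (some 0) ≠ none := by
      intro h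
      have := σ.symm.injective (h.trans f1.symm)
      simp at this
    rw [if_pos (Or.inr rfl), if_neg (by simp [hne, hne2])] at h1
    omega
  refine ⟨⟨σ, hσ⟩, FusGrp.mem_M22.2 ⟨hσ, ?_, ?_⟩, ?_⟩
  · rw [ptOf_23]; exact (Equiv.symm_apply_eq σ).1 f1 |>.symm
  · rw [ptOf_0]; exact (Equiv.symm_apply_eq σ).1 f2 |>.symm
  · apply Equiv.ext; intro v; apply Subtype.ext; funext i
    rw [iota_apply, hv2]

theorem hypMcL : Hyp McL S0L := by
  have h22 := hyp22
  refine ⟨?_, ?_, ?_, ?_, ?_⟩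
  · rintro _ ⟨s, hs, rfl⟩
    exact iota_mem_McL (σ := s) (Subgroup.mem_subgroupOf.1 hs).1
  · rintro _ ⟨s, hs, rfl⟩
    obtain ⟨k, hk⟩ := h22.h2 s.1 hs
    refine ⟨k, ?_⟩
    rw [← map_pow]
    have : s ^ 2 ^ k = 1 := Subtype.ext (by simpa using hk)
    rw [this, map_one]
  · intro hb
    apply h22.hne
    rw [eq_bot_iff]
    intro s hs
    have h1 : iota ⟨s, S22_le hs⟩ ∈ S0L := mem_S0L.2 ⟨_, hs, rfl⟩
    rw [hb, Subgroup.mem_bot] at h1
    have h2 := iota_injective (h1.trans (map_one iota).symm)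
    rw [Subgroup.mem_bot]
    exact congrArg Subtype.val h2
  · intro n hn hnorm
    obtain ⟨σ, hσ, rfl⟩ := exists_iota hn (fix_E8 hn hnorm)
    refine mem_S0L.2 ⟨σ, ?_, rfl⟩
    apply h22.hN σ.1 hσ
    intro s hs
    obtain ⟨s', hs', e⟩ := mem_S0L.1 (hnorm (iota ⟨s, S22_le hs⟩) (mem_S0L.2 ⟨_, hs, rfl⟩))
    rw [← map_inv, ← map_mul, ← map_mul] at e
    have := iota_injective e
    rw [this] at hs'
    exact hs'
  · intro T hT hTne hcl
    have h1 : S22 ≤ (T.comap iota).map M24.subtype := by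
      apply h22.hSC
      · rintro _ ⟨x, hx, rfl⟩
        obtain ⟨s', hs', e⟩ := mem_S0L.1 (hT (Subgroup.mem_comap.1 hx))
        rw [← iota_injective e]
        exact hs'
      · intro hb
        apply hTne
        rw [eq_bot_iff]
        intro t ht
        obtain ⟨s', hs', rfl⟩ := mem_S0L.1 (hT ht)
        have h2 : s'.1 ∈ (T.comap iota).map M24.subtype := ⟨s', ht, rfl⟩
        rw [hb, Subgroup.mem_bot] at h2
        have h3 : s' = 1 := Subtype.ext h2
        rw [h3, map_one]; exact Subgroup.one_mem _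
      · rintro _ ⟨x, hx, rfl⟩ g hg hgs
        have hg24 : g ∈ M24 := FusGrp.M22_le hg
        refine ⟨⟨g, hg24⟩ * x * ⟨g, hg24⟩⁻¹, ?_, rfl⟩
        rw [SetLike.mem_coe, Subgroup.mem_comap, map_mul, map_mul, map_inv]
        apply hcl _ (Subgroup.mem_comap.1 hx) _ (iota_mem_McL (σ := ⟨g, hg24⟩) hg)
        rw [← map_inv, ← map_mul, ← map_mul]
        exact mem_S0L.2 ⟨_, hgs, rfl⟩
    rintro _ ⟨s, hs, rfl⟩
    obtain ⟨x, hx, e⟩ := h1 (Subgroup.mem_subgroupOf.1 hs)
    have : x = s := Subtype.ext e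
    rw [← this]
    exact hx

end Cfsg.Agent.Lib.Helper3.FusMcL
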