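import Cfsg.Agent.Lib.Helper3.FusHyp
import Cfsg.Agent.Lib.Helper3.FusM22
import Cfsg.Agent.Lib.Helper3.StabCard

/-!
# Simplicity of `M22`
-/

set_option autoImplicit false

namespace Cfsg.Agent.Lib.Helper3.M22Simple

open Cfsg Cfsg.Agent.Lib.Helper28 Cfsg.Agent.Lib.Helper3.M24T Cfsg.Agent.Lib.Helper3.M24Gen
  Cfsg.Agent.Lib.Helper3.FusEnum Cfsg.Agent.Lib.Helper3.FusHyp

theorem hyp22 : Hyp Spor.M22 (SL Spor.M22 FusM22.C.lam) :=
  hyp_of_cert FusM22.C Spor.M22 FusGrp.good22 FusGrp.hcol22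
    (fun g hg h => FusGrp.base24 g (FusGrp.M22_le hg) h)
    FusM22.c1 FusM22.c2 FusM22.c3 FusM22.c4 FusM22.c5 FusM22.c6 FusM22.c7

theorem trans22 {x y a b : GolayPt} (hx1 : x ≠ none) (hx2 : x ≠ some 0) (hy1 : y ≠ none)
    (hy2 : y ≠ some 0) (hxy : x ≠ y) (ha1 : a ≠ none) (ha2 : a ≠ some 0) (hb1 : b ≠ none)
    (hb2 : b ≠ some 0) (hab : a ≠ b) : ∃ g ∈ Spor.M22, g x = a ∧ g y = b := by
  obtain ⟨g, hg, h⟩ := exists_M24_map_list [none, some 0, x, y] [none, some 0, a, b] rfl (by simp)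
    (by simp [hx1.symm, hx2.symm, hy1.symm, hy2.symm, hxy])
    (by simp [ha1.symm, ha2.symm, hb1.symm, hb2.symm, hab])
  simp only [List.map_cons, List.map_nil, List.cons.injEq, and_true] at h
  refine ⟨g, FusGrp.mem_M22.2 ⟨hg, ?_, ?_⟩, h.2.2.1, h.2.2.2⟩
  · rw [ptOf_23]; exact h.1
  · rw [ptOf_0]; exact h.2.1

theorem even_card (N : Subgroup Spor.M22) [hN : N.Normal] (hne : N ≠ ⊥) : 2 ∣ Nat.card N := by
  obtain ⟨⟨⟨n, hn22⟩, hnN⟩, hn1⟩ := (Subgroup.ne_bot_iff_exists_ne_one).mp hne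
  have hn1' : n ≠ 1 := fun h => hn1 (Subtype.ext (Subtype.ext h))
  obtain ⟨x, hx⟩ : ∃ x, n x ≠ x := by
    by_contra hcon
    push Not at hcon
    exact hn1' (Equiv.ext hcon)
  obtain ⟨-, f1, f2⟩ := FusGrp.mem_M22.1 hn22
  rw [ptOf_23] at f1
  rw [ptOf_0] at f2
  have hx1 : x ≠ none := fun h => hx (h ▸ f1)
  have hx2 : x ≠ some 0 := fun h => hx (h ▸ f2)
  have hy1 : n x ≠ none := fun h => hx1 (n.injective (h.trans f1.symm))
  have hy2 : n x ≠ some 0 := fun h => hx2 (n.injective (h.trans f2.symm))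
  have horb : MulAction.orbit N x = {p : GolayPt | p ≠ none ∧ p ≠ some 0} := by
    ext b
    constructor
    · rintro ⟨⟨⟨m, hm22⟩, hmN⟩, rfl⟩
      obtain ⟨-, g1, g2⟩ := FusGrp.mem_M22.1 hm22
      rw [ptOf_23] at g1
      rw [ptOf_0] at g2
      exact ⟨fun h => hx1 (m.injective ((show m x = none from h).trans g1.symm)),
        fun h => hx2 (m.injective ((show m x = some 0 from h).trans g2.symm))⟩
    · rintro ⟨hb1, hb2⟩
      by_cases hbx : b = x
      · rw [hbx]; exact MulAction.mem_orbit_self x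
      · obtain ⟨g, hg, e1, e2⟩ := trans22 hx1 hx2 hy1 hy2 (Ne.symm hx) hx1 hx2 hb1 hb2 (Ne.symm hbx)
        refine ⟨⟨⟨g, hg⟩ * ⟨n, hn22⟩ * ⟨g, hg⟩⁻¹, hN.conj_mem _ hnN _⟩, ?_⟩
        change (g * n * g⁻¹) x = b
        have := conj_apply g n x
        rw [e1, e2] at this
        exact this
  have hc := StabCard.card_stabilizer_mul_orbit (G := N) x
  rw [horb] at hc
  have h22 : ({p : GolayPt | p ≠ none ∧ p ≠ some 0} : Set GolayPt).ncard = 22 := by
    rw [Set.ncard_eq_toFinset_card']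
    decide +kernel
  rw [h22] at hc
  exact ⟨Nat.card (MulAction.stabilizer N x) * 11, by rw [← hc]; ring⟩

theorem m22_simple : IsSimpleGroup Spor.M22 := by
  have h := hyp22.of_iso (MulEquiv.refl Spor.M22)
  have hnt : Nontrivial Spor.M22 := by
    rw [← Finite.one_lt_card_iff_nontrivial, card_M22]; norm_num
  refine ⟨fun N hN => ?_⟩
  by_cases hb : N = ⊥
  · exact Or.inl hb
  · exact Or.inr (h.normal_eq_top N (even_card N hb))

end Cfsg.Agent.Lib.Helper3.M22Simple
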